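import Mathlib
import Cfsg.Agent.Base
import Cfsg.Agent.Lib.Cyc.Nil
import Cfsg.Agent.Lib.H85.Lift
import Cfsg.Agent.Lib.Block.Apps
import Cfsg.Agent.Lib.Block.ModRank

/-! A faithful module in coprime characteristic gives a faithful complex character of no larger degree. -/

set_option autoImplicit false

attribute [local irreducible] H33.instFieldF

namespace H81.TV

open MonoidAlgebra Module Cfsg H33

universe v

variable {G : Type*} [Group G] [Finite G] {M : Ideal AlgInt} [M.IsMaximal]

theorem exists_ker {K : Type*} [Field K] {U : Type*} [AddCommGroup U] [Module K U] [Module K[G] U]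
    [IsScalarTower K K[G] U] (v : U) : ∃ (d : ℕ) (β : Fin d → K[G]), LinearIndependent K β ∧ (∀ j, β j • v = 0) ∧
      finrank K (Submodule.span K[G] {v}) + d = Nat.card G := by
  letI := Fintype.ofFinite G
  have gen : ∀ (W : Type _) [AddCommGroup W] [Module K W] [FiniteDimensional K W] (S : Submodule K W),
      ∃ β : Fin (finrank K S) → W, LinearIndependent K β ∧ ∀ j, β j ∈ S := fun W _ _ _ S =>
    ⟨fun j => finBasis K S j, (finBasis K S).linearIndependent.map' _ S.ker_subtype, fun j => (finBasis K S j).2⟩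
  let fk : K[G] →ₗ[K] U := (LinearMap.toSpanSingleton K[G] U v).restrictScalars K
  obtain ⟨β, b1, b2⟩ := gen K[G] (LinearMap.ker fk)
  refine ⟨_, β, b1, b2, ?_⟩
  have h5 := fk.finrank_range_add_finrank_ker
  rw [finrank_eq_card_basis (MonoidAlgebra.basis G _), ← Nat.card_eq_fintype_card] at h5
  rw [← h5, LinearMap.span_singleton_eq_range]
  rfl

theorem lift_cyc [NeZero (Nat.card G : F M)] {U : Type*} [AddCommGroup U] [Module (F M) U] [Module (F M)[G] U]
    [IsScalarTower (F M) (F M)[G] U] (v : U) : ∃ (χ : G → ℂ) (m : ℕ), IsCharacter G χ ∧ χ 1 = m ∧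
      m ≤ finrank (F M) (Submodule.span (F M)[G] {v}) ∧
      ∀ g, χ g = χ 1 → ∀ u ∈ Submodule.span (F M)[G] {v}, (single g 1 : (F M)[G]) • u = u := by
  letI := Fintype.ofFinite G
  let f := LinearMap.toSpanSingleton (F M)[G] U v
  obtain ⟨J, hJ⟩ := MonoidAlgebra.Submodule.exists_isCompl (LinearMap.ker f)
  obtain ⟨a, ha, e, he, hae⟩ := Submodule.mem_sup.1 (hJ.sup_eq_top ▸ Submodule.mem_top (x := (1 : (F M)[G])))
  have h0 : ∀ x ∈ LinearMap.ker f, x * e = 0 := fun x hx => by
    refine (Submodule.disjoint_def.1 hJ.disjoint) _ ?_ (J.smul_mem x he)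
    rw [show x * e = x - x * a by rw [eq_sub_iff_add_eq, ← mul_add, add_comm, hae, mul_one]]
    exact sub_mem hx ((LinearMap.ker f).smul_mem x ha)
  have hee : e * e = e := by
    have := congrArg (· * e) hae
    simpa only [add_mul, h0 a ha, zero_add, one_mul] using this
  have hev : e • v = v := by
    have := congrArg (· • v) hae
    simpa only [add_smul, show a • v = 0 from ha, zero_add, one_smul] using this
  obtain ⟨i, hi, -, hii, hr⟩ := H85.exists_idem_lift (M := M) (H := ⊤) (N := ⊥) (e := e)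
    ⟨fun g hg => absurd (Subgroup.mem_top g) hg, fun n hn g => by rw [Subgroup.mem_bot.1 hn]; simp⟩ hee
  let τ0 : Representation ℂ G ℂ[G] := (Algebra.lmul ℂ ℂ[G]).toMonoidHom.comp (MonoidAlgebra.of ℂ G)
  let W := LinearMap.range (LinearMap.mulRight ℂ i)
  let τ := τ0.subrepresentation W (by
    rintro g _ ⟨x, rfl⟩
    exact ⟨single g 1 * x, mul_assoc _ _ _⟩)
  refine ⟨τ.character, finrank ℂ W, H6.isCharacter_character τ, Representation.char_one τ, ?_, fun g hg u hu => ?_⟩
  · obtain ⟨d, β, b1, b2, b3⟩ := exists_ker (G := G) (K := F M) v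
    choose x hx hxr using fun j => exists_redA_eq (M := M) (β j)
    have h2 : (fun j => redA M (x j - x j * i)) = β := funext fun j => by
      rw [redA_sub (hx j) (mul_mem (hx j) hi), redA_mul (hx j) hi, hxr, hr, h0 _ (b2 j), sub_zero]
    have h1 := H35C.linearIndependent_of_redA (M := M) (fun j => x j - x j * i)
      (fun j => sub_mem (hx j) (mul_mem (hx j) hi)) (by rw [h2]; exact b1)
    have h2 : ∀ j, x j - x j * i ∈ LinearMap.ker (LinearMap.mulRight ℂ i) := fun j => by
      rw [LinearMap.mem_ker, LinearMap.mulRight_apply, sub_mul, mul_assoc, hii, sub_self]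
    have h3 := (LinearIndependent.of_comp (Submodule.subtype _)
      (v := fun j => (⟨_, h2 j⟩ : LinearMap.ker (LinearMap.mulRight ℂ i))) h1).fintype_card_le_finrank
    have h4 := (LinearMap.mulRight ℂ i).finrank_range_add_finrank_ker
    rw [finrank_eq_card_basis (MonoidAlgebra.basis G _), ← Nat.card_eq_fintype_card] at h4
    rw [Fintype.card_fin] at h3
    change finrank ℂ (LinearMap.range _) ≤ _
    omega
  · rw [Representation.char_one, H6.character_eq_finrank_iff] at hg
    obtain ⟨b, rfl⟩ := Submodule.mem_span_singleton.1 hu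
    obtain ⟨x, hx, rfl⟩ := exists_redA_eq (M := M) b
    have h1 : single g 1 * (x * i) = x * i := congrArg Subtype.val (LinearMap.congr_fun hg ⟨x * i, x, rfl⟩)
    have h2 := congrArg (redA M) h1
    rw [redA_mul (single_one_mem_OG g) (mul_mem hx hi), redA_mul hx hi, redA_single_one, hr] at h2
    rw [← hev, smul_smul, smul_smul, mul_assoc, h2, mul_smul]

theorem lift_mod [NeZero (Nat.card G : F M)] (n : ℕ) : ∀ (U : Type v) [AddCommGroup U] [Module (F M) U]
    [Module (F M)[G] U] [IsScalarTower (F M) (F M)[G] U] [FiniteDimensional (F M) U], finrank (F M) U = n →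
    ∃ (χ : G → ℂ) (m : ℕ), IsCharacter G χ ∧ χ 1 = m ∧ m ≤ n ∧
      ∀ g, χ g = χ 1 → ∀ u : U, (single g 1 : (F M)[G]) • u = u := by
  induction n using Nat.strong_induction_on with
  | _ n ih =>
  intro U _ _ _ _ _ hn
  rcases subsingleton_or_nontrivial U with hU | hU
  · exact ⟨0, 0, H6.isCharacter_zero, by simp, Nat.zero_le _, fun g _ u => Subsingleton.elim _ _⟩
  obtain ⟨v, hv⟩ := exists_ne (0 : U)
  obtain ⟨χ, m, h1, h2, h3, h4⟩ := lift_cyc (G := G) (M := M) v
  obtain ⟨Q, hQ⟩ := MonoidAlgebra.Submodule.exists_isCompl (Submodule.span (F M)[G] {v})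
  have fin : ∀ W : Submodule (F M)[G] U, FiniteDimensional (F M) W := fun W =>
    Module.Finite.of_injective (W.subtype.restrictScalars (F M)) W.subtype_injective
  have := fin Q
  have := fin (Submodule.span (F M)[G] {v})
  have e := ((Submodule.prodEquivOfIsCompl _ _ hQ).restrictScalars (F M)).finrank_eq
  rw [Module.finrank_prod, hn] at e
  have : Nontrivial (Submodule.span (F M)[G] {v}) :=
    ⟨⟨⟨v, Submodule.mem_span_singleton_self v⟩, 0, fun h => hv (congrArg Subtype.val h)⟩⟩
  have pos : 0 < finrank (F M) (Submodule.span (F M)[G] {v}) := finrank_pos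
  obtain ⟨ψ, m', k1, k2, k3, k4⟩ := ih _ (by omega) Q rfl
  refine ⟨χ + ψ, m + m', H6.isCharacter_add h1 k1, by simp [h2, k2], by omega, fun g hg u => ?_⟩
  have b1 := (Complex.re_le_norm _).trans (H6.char_norm_le h1 g)
  have b2 := (Complex.re_le_norm _).trans (H6.char_norm_le k1 g)
  have b3 := congrArg Complex.re hg
  have n1 := H6.char_norm_le h1 g
  have n2 := H6.char_norm_le k1 g
  simp only [Pi.add_apply, Complex.add_re, h2, k2, Complex.natCast_re, Complex.norm_natCast] at b1 b2 b3 n1 n2
  have key : ∀ (z : ℂ) (a : ℕ), ‖z‖ ≤ a → z.re = a → z = a := fun z a h h' => by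
    have := Complex.sq_norm z
    rw [Complex.normSq_apply] at this
    have h0 : z.im = 0 := by nlinarith [norm_nonneg z, mul_self_nonneg z.im]
    exact Complex.ext (by simpa using h') (by simpa using h0)
  obtain ⟨a, ha, b, hb, rfl⟩ := Submodule.mem_sup.1 (hQ.sup_eq_top ▸ Submodule.mem_top (x := u))
  rw [smul_add, h4 g (by rw [h2]; exact key _ _ n1 (by linarith)) a ha]
  exact congrArg _ (congrArg Subtype.val (k4 g (by rw [k2]; exact key _ _ n2 (by linarith)) ⟨b, hb⟩))

/-- the lift to characteristic zero -/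
theorem exists_char {p : ℕ} [hp : Fact p.Prime] (hG : ¬ p ∣ Nat.card G) {K : Type*} [Field K] [Finite K]
    [CharP K p] {V : Type*} [AddCommGroup V] [Module K V] [FiniteDimensional K V] (ρ : G →* End K V)
    (hρ : Function.Injective ρ) : ∃ (χ : G → ℂ) (m : ℕ), IsCharacter G χ ∧ χ 1 = m ∧ m ≤ finrank K V ∧
      ∀ g, χ g = χ 1 → g = 1 := by
  obtain ⟨M, hM⟩ := exists_isPModular p
  have := hM.2.1
  have := charP hM
  have : NeZero (Nat.card G : F M) := ⟨fun h => hG ((CharP.cast_eq_zero_iff _ p _).1 h)⟩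
  let _ : Algebra (ZMod p) K := ZMod.algebra K p
  let _ : Algebra (ZMod p) (F M) := ZMod.algebra _ p
  let φ : K →ₐ[ZMod p] F M := IsAlgClosed.lift
  let b := Module.finBasis K V
  let σ : G →* Matrix (Fin (finrank K V)) (Fin (finrank K V)) (F M) :=
    (φ.toRingHom.mapMatrix.toMonoidHom.comp (LinearMap.toMatrixAlgEquiv b).toMonoidHom).comp ρ
  let τ : Representation (F M) G (Fin (finrank K V) → F M) := Matrix.toLinAlgEquiv'.toMonoidHom.comp σ
  obtain ⟨χ, m, h1, h2, h3, h4⟩ := lift_mod (G := G) (M := M) (finrank K V) τ.asModule (by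
    rw [τ.asModuleEquiv.finrank_eq]; simp)
  refine ⟨χ, m, h1, h2, h3, fun g hg => hρ ?_⟩
  have h5 : τ g = τ 1 := by
    refine LinearMap.ext fun u => ?_
    have := congrArg τ.asModuleEquiv (h4 g hg (τ.asModuleEquiv.symm u))
    rw [Representation.asModuleEquiv_map_smul, Representation.asAlgebraHom_single_one] at this
    simpa using this
  have h6 : σ g = σ 1 := Matrix.toLinAlgEquiv'.injective h5
  exact (LinearMap.toMatrixAlgEquiv b).injective (Matrix.map_injective φ.toRingHom.injective h6)

end H81.TV
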