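import Mathlib
import Cfsg.Agent.Base
import Cfsg.Agent.Lib.FrobC.Huppert
import Cfsg.Agent.Lib.KR.Defs
import Cfsg.Agent.Lib.PGroup.Omega

/-! Class numbers of transitive semilinear groups of dimension one. -/

set_option autoImplicit false

namespace H81.TV

open Subgroup Module H82

variable {G : Type*} [Group G] [Finite G]

/-- class number of a group with an abelian normal subgroup -/
theorem cc_ab (C : Subgroup G) {t : ℕ}
    (h : ∀ g, g ∉ C → Nat.card (centralizer ({g} : Set G) ⊓ C : Subgroup G) ≤ t) (hC : IsMulCommutative C) :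
    C.index * Nat.card (ConjClasses G) + t ≤ Nat.card C + C.index ^ 2 * t := by
  classical
  have := Fintype.ofFinite G
  have e := card_conjClasses_mul_card (G := G)
  let S : Finset G := Finset.univ.filter (· ∈ C)
  have hS : S.card = Nat.card C := by
    rw [Nat.card_eq_fintype_card, Fintype.card_subtype]
  have hS' : Sᶜ.card + Nat.card C = Nat.card C * C.index := by
    rw [← hS, add_comm, Finset.card_add_card_compl, hS, C.card_mul_index, Nat.card_eq_fintype_card]
  have h1 : ∑ x ∈ Sᶜ, Nat.card (centralizer ({x} : Set G)) ≤ Sᶜ.card * (t * C.index) :=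
    Finset.sum_le_card_nsmul _ _ _ fun x hx => (card_le_card_inf_mul_index _ C).trans
      (Nat.mul_le_mul_right _ (h x (by simpa [S] using hx)))
  have h2 : ∑ x ∈ S, Nat.card (centralizer ({x} : Set G)) ≤ Nat.card C * Nat.card C + Sᶜ.card * t := by
    have h3 := sum_card_Cx_inf S (⊤ : Subgroup G)
    simp only [inf_top_eq] at h3
    rw [h3, ← (topEquiv (G := G)).toEquiv.symm.sum_comp, ← Finset.sum_add_sum_compl S]
    refine add_le_add ?_ (Finset.sum_le_card_nsmul _ _ _ fun y hy => le_trans (le_of_eq ?_) (h y (by simpa [S] using hy)))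
    · rw [← hS]
      exact Finset.sum_le_card_nsmul _ _ _ fun y _ => Finset.card_filter_le _ _
    · rw [card_inf_eq_filter, Finset.filter_filter]
      exact congrArg _ (Finset.filter_congr fun x _ => and_comm)
  rw [← Finset.sum_add_sum_compl S, ← C.card_mul_index] at e
  have hc : 0 < Nat.card C := Nat.card_pos
  refine Nat.le_of_mul_le_mul_left ?_ hc
  generalize Sᶜ.card = s at *
  generalize Nat.card C = c at *
  generalize C.index = d at *
  have : s * (t * d) + s * t + c * t + c * (t * d) = c * d * (t * d) + c * d * t := by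
    rw [← hS']; ring
  nlinarith

theorem arith {p n d : ℕ} (hp : p.Prime) (hd : d ∣ n) (h2 : 2 ≤ d) (hn : 0 < n) (hpd : ¬ p ∣ d) :
    d + 1 < p ^ (n - n / 2) ∨ (p = 2 ∧ n = 3 ∧ d = 3) ∨ (p = 3 ∧ n = 2 ∧ d = 2) := by
  have h1 := Nat.le_of_dvd hn hd
  have two : ∀ j, 3 ≤ j → 2 * j + 1 < 2 ^ j := fun j hj => by
    induction j, hj using Nat.le_induction with
    | base => norm_num
    | succ j _ ih => rw [pow_succ]; omega
  have three : ∀ j, 2 ≤ j → 2 * j + 1 < 3 ^ j := fun j hj => by
    induction j, hj using Nat.le_induction with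
    | base => norm_num
    | succ j _ ih => rw [pow_succ]; omega
  rcases hp.eq_two_or_odd' with rfl | ho
  · by_cases h3 : 3 ≤ n - n / 2
    · have := two _ h3; omega
    · have h4 : n ≤ 4 := by omega
      right; left
      interval_cases n <;> interval_cases d <;> simp_all
  · have h3 : 3 ≤ p := by
      have := hp.two_le
      obtain ⟨j, rfl⟩ := ho
      omega
    by_cases h4 : 2 ≤ n - n / 2
    · have := (three _ h4).trans_le (Nat.pow_le_pow_left h3 _); omega
    · obtain rfl : n = 2 := by omega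
      obtain rfl : d = 2 := by omega
      rcases h3.eq_or_lt with rfl | h5
      · simp
      · left; simpa using h5

variable {p : ℕ} [hp : Fact p.Prime] {V : Type*} [AddCommGroup V] [Module (ZMod p) V] [Finite V] [Nontrivial V]
  {ρ : G →* End (ZMod p) V}

/-- the conclusion -/
def Con (G : Type*) [Group G] (q a : ℕ) : Prop :=
  Nat.card (ConjClasses G) + a < q ∨ Nat.card (ConjClasses G) + a ≤ q ∧
    (IsCyclic G ∨ (q = 8 ∧ Nat.card G = 21) ∨ (q = 9 ∧ Nat.card G = 16))

theorem gam (h : TrRep ρ) (hG : ¬ p ∣ Nat.card G) (hΓ : Gam ρ) {a : ℕ}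
    (ha : Nat.card G = (p ^ finrank (ZMod p) V - 1) * a) : Con G (p ^ finrank (ZMod p) V) a := by
  obtain ⟨A, _, hA, hI⟩ := hΓ
  have hn := finrank_V_pos (q := p) (V := V)
  have hC := h.comm_centralizer hA.isMulCommutative hI
  obtain ⟨k, k1, -, -, k2, -⟩ := h.exists_deg A hA.isMulCommutative
  obtain ⟨l, l1, l2, l3, -⟩ := h.exists_deg _ hC
  have AC : A ≤ centralizer (A : Set G) := fun a ha b hb => by
    have := hA.isMulCommutative; exact setLike_mul_comm hb ha
  set C := centralizer (A : Set G) with hCd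
  set n := finrank (ZMod p) V
  have q1 : 1 < p ^ n := Nat.one_lt_pow hn.ne' hp.out.one_lt
  have c1 : Nat.card C ≤ p ^ n - 1 := Nat.le_of_dvd (by omega) (l3.trans (Nat.pow_sub_one_dvd_pow_sub_one _ l1))
  have e := C.card_mul_index
  have ad : a ≤ C.index := by
    refine Nat.le_of_mul_le_mul_left (c := p ^ n - 1) ?_ (by omega)
    rw [← ha, ← e]; exact Nat.mul_le_mul_right _ c1
  by_cases d1 : C.index = 1
  · have : IsCyclic G := by
      rw [index_eq_one] at d1
      exact isCyclic_of_surjective C.subtype fun g => ⟨⟨g, d1 ▸ mem_top g⟩, rfl⟩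
    have := KR.card_cc_le_card (X := G)
    rw [d1, mul_one] at e
    exact .inr ⟨by omega, .inl ‹_›⟩
  have d0 := C.index_ne_zero_of_finite
  have key := cc_ab C (t := p ^ (n / 2) - 1) (fun g hg => by
    let D := centralizer ({g} : Set G) ⊓ C
    have : D.Normal := H5.normal_of_le_cyclic l2 inf_le_right
    have hD : IsMulCommutative D := IsMulCommutative.of_setLike_mul_comm fun a ha b hb =>
      setLike_mul_comm (s := C) ha.2 hb.2
    obtain ⟨j, j1, -, j2, -, -, j3, -⟩ := h.exists_deg D hD
    have j4 : j ≠ n := fun e => hg fun a ha => by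
      have := h.comm_centralizer hD (j3 e)
      exact setLike_mul_comm (s := centralizer (D : Set G)) (fun d hd => setLike_mul_comm (s := C) hd.2 (AC ha))
        fun d hd => mem_centralizer_singleton_iff.1 hd.1
    have j5 : j ≤ n / 2 := by
      obtain ⟨u, hu⟩ : j ∣ n := j1
      rw [Nat.le_div_iff_mul_le two_pos, hu]
      refine Nat.mul_le_mul_left _ ?_
      rcases u with _ | _ | u
      · simp [hu] at hn
      · simp [hu] at j4
      · omega
    have j0 := Nat.pos_of_dvd_of_pos j1 hn
    exact (Nat.le_of_dvd (Nat.sub_pos_of_lt (Nat.one_lt_pow j0.ne' hp.out.one_lt)) j2).trans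
      (Nat.sub_le_sub_right (Nat.pow_le_pow_right hp.out.pos j5) 1)) hC
  have hs : 0 < p ^ (n / 2) := pow_pos hp.out.pos _
  have eq : p ^ n = p ^ (n - n / 2) * p ^ (n / 2) := by rw [← pow_add]; congr 1; omega
  rcases arith hp.out (k2.trans k1) (by omega) hn (fun hd => hG (hd.trans C.index_dvd_card)) with
    h1 | ⟨rfl, h1, h2⟩ | ⟨rfl, h1, h2⟩
  · left
    refine Nat.lt_of_mul_lt_mul_left (a := C.index) ?_
    obtain ⟨s, hs'⟩ : ∃ s, p ^ (n / 2) = s + 1 := ⟨_, (Nat.succ_pred_eq_of_pos hs).symm⟩
    obtain ⟨d, hd⟩ : ∃ d, C.index = d + 2 := ⟨C.index - 2, by omega⟩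
    have h2 : (d + 4) * (s + 1) ≤ p ^ n := by rw [eq, hs']; exact Nat.mul_le_mul_right _ (by omega)
    rw [hs', hd] at key
    rw [hd] at ad ⊢
    simp only [Nat.add_sub_cancel] at key
    have h3 : Nat.card C + 1 ≤ p ^ n := by omega
    generalize p ^ n = q at *
    nlinarith
  · have : 0 < Nat.card C := Nat.card_pos
    rw [h1, h2] at key
    rw [h1] at c1 ha ⊢
    rw [h2] at e ad
    norm_num at key c1 ha
    exact .inr ⟨by omega, .inr (.inl ⟨rfl, by omega⟩)⟩
  · rw [h1, h2] at key
    rw [h1] at c1 ha ⊢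
    rw [h2] at e ad
    norm_num at key c1 ha
    rcases ad.eq_or_lt with rfl | h3
    · exact .inr ⟨by omega, .inr (.inr ⟨rfl, by omega⟩)⟩
    · left; omega

end H81.TV
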