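import Mathlib
import Cfsg.Agent.Base
import Cfsg.Agent.Lib.KGT.Gam

/-! Class numbers of transitive linear groups in dimension at most two. -/

set_option autoImplicit false

namespace H81.TV

open Subgroup Module H82

variable {G : Type*} [Group G] [Finite G] {p : ℕ} [hp : Fact p.Prime] {V : Type*} [AddCommGroup V]
  [Module (ZMod p) V] [Finite V] {ρ : G →* End (ZMod p) V}

omit [Finite G] [Finite V] in
/-- the centraliser of an abelian subgroup with a cyclic vector is abelian -/
theorem comm_cent (hρ : Function.Injective ρ) {A : Subgroup G} (hA : IsMulCommutative A) {v : V}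
    (hv : Function.Surjective (fldEv ρ A v)) : IsMulCommutative (centralizer (A : Set G)) := by
  have key : ∀ c ∈ centralizer (A : Set G), ρ c ∈ fld ρ A := by
    intro c hc
    obtain ⟨u, hu⟩ := hv (ρ c v)
    have : ρ c = u := by
      ext w
      obtain ⟨r, rfl⟩ := hv w
      have h1 : Commute (ρ c) r := commute_fld (fun a ha => by
        rw [Commute, SemiconjBy, ← map_mul, ← map_mul, hc a ha]) r.2
      change (ρ c * r.1) v = (u.1 * r.1) v
      rw [h1.eq, (fld_comm hA u.2 r.2).eq, End.mul_apply, ← hu]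
      rfl
    exact this ▸ u.2
  exact IsMulCommutative.of_setLike_mul_comm fun a ha b hb => hρ (by
    rw [map_mul, map_mul, (fld_comm hA (key a ha) (key b hb)).eq])

omit [Finite G] in
theorem cent_zpowers (x : G) : centralizer (zpowers x : Set G) = centralizer {x} := by
  rw [zpowers_eq_closure, centralizer_closure]

omit [Finite G] [Finite V] in
theorem mem_center_of_smul (hρ : Function.Injective ρ) {x : G} {a : ZMod p} (h : ρ x = a • 1) : x ∈ center G :=
  mem_center_iff.2 fun g => hρ (by rw [map_mul, map_mul, h, mul_smul_comm, smul_mul_assoc, mul_one, one_mul])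

omit [Finite G] [Finite V] in
theorem exists_li (hρ : Function.Injective ρ) {x : G} (hx : x ∉ center G) :
    ∃ v, LinearIndependent (ZMod p) ![v, ρ x v] := by
  by_contra hc
  push Not at hc
  obtain ⟨a, ha⟩ := (ρ x).exists_eq_smul_id_of_forall_notLinearIndependent hc
  exact hx (mem_center_of_smul hρ ha)

/-- the order of the group divides the order of the general linear group -/
theorem card_dvd_GL {H : Type*} [Group H] (σ : H →* End (ZMod p) V) :
    Nat.card (MonoidHom.toHomUnits σ).range ∣
      ∏ i : Fin (finrank (ZMod p) V), (p ^ finrank (ZMod p) V - p ^ (i : ℕ)) := by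
  rw [← KR.card_GL_zmod, ← Nat.card_congr
    (Units.mapEquiv (LinearMap.toMatrixAlgEquiv (finBasis (ZMod p) V)).toMulEquiv).toEquiv]
  exact card_subgroup_dvd_card _

theorem card_dvd_GL' (hρ : Function.Injective ρ) :
    Nat.card G ∣ ∏ i : Fin (finrank (ZMod p) V), (p ^ finrank (ZMod p) V - p ^ (i : ℕ)) := by
  have := card_dvd_GL ρ
  rwa [← Nat.card_congr (MonoidHom.ofInjective (f := MonoidHom.toHomUnits ρ)
    fun a b e => hρ (congrArg Units.val e)).toEquiv] at this

variable [Nontrivial V]

theorem gam_one (h : TrRep ρ) (hn : finrank (ZMod p) V = 1) : Gam ρ := by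
  refine h.gam_of_centralizer_le ⊤ (IsMulCommutative.of_setLike_mul_comm fun a _ b _ => ?_) le_top
  by_contra hc
  obtain ⟨v, hv⟩ := exists_li h.inj (x := b) fun hb => hc (mem_center_iff.1 hb a)
  have := hv.fintype_card_le_finrank
  simp [hn] at this

omit [Finite G] [Nontrivial V] in
theorem comm_two (hρ : Function.Injective ρ) (hn : finrank (ZMod p) V = 2) {x : G} (hx : x ∉ center G) :
    IsMulCommutative (centralizer ({x} : Set G)) := by
  obtain ⟨v, hv⟩ := exists_li hρ hx
  rw [← cent_zpowers]
  refine comm_cent hρ inferInstance (v := v) ?_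
  rw [← LinearMap.range_eq_top, eq_top_iff, ← hv.span_eq_top_of_card_eq_finrank' (by simp [hn]), Submodule.span_le]
  rintro _ ⟨i, rfl⟩
  fin_cases i
  · exact ⟨1, rfl⟩
  · exact ⟨⟨ρ x, mem_fld (mem_zpowers x)⟩, rfl⟩

theorem card_le_two (hρ : Function.Injective ρ) (hG : ¬ p ∣ Nat.card G) (hn : finrank (ZMod p) V = 2) :
    Nat.card G ≤ (p ^ 2 - 1) * Nat.card (center G) := by
  let s : (ZMod p)ˣ →* End (ZMod p) V := (algebraMap (ZMod p) (End (ZMod p) V)).toMonoidHom.comp (Units.coeHom _)
  let σ : G × (ZMod p)ˣ →* End (ZMod p) V := ρ.noncommCoprod s fun g c => (Algebra.commutes (c : ZMod p) (ρ g)).symm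
  let τ := MonoidHom.toHomUnits σ
  have h1 := card_dvd_GL σ
  have h2 := τ.ker.card_mul_index
  have hp1 := hp.out.one_lt
  rw [index_ker, Nat.card_prod, Nat.card_units, Nat.card_zmod] at h2
  have h3 : Nat.card τ.ker ≤ Nat.card (center G) := by
    have k : ∀ x : τ.ker, ρ x.1.1 * algebraMap (ZMod p) (End (ZMod p) V) x.1.2 = 1 := fun x =>
      congrArg Units.val (show τ x = 1 from x.2)
    have k' : ∀ x : τ.ker, ρ x.1.1 = (x.1.2⁻¹ : (ZMod p)ˣ) • 1 := fun x => by
      have := congrArg (fun t => (x.1.2⁻¹ : (ZMod p)ˣ) • t) (k x)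
      simpa only [Algebra.algebraMap_eq_smul_one, mul_smul_comm, mul_one, ← Units.smul_def, inv_smul_smul] using this
    refine Nat.card_le_card_of_injective (fun x => ⟨x.1.1, mem_center_of_smul hρ (k' x)⟩) fun x y e => ?_
    have e1 : x.1.1 = y.1.1 := congrArg Subtype.val e
    have e2 := (k x).trans (k y).symm
    rw [e1] at e2
    exact Subtype.ext (Prod.ext e1 (Units.ext (FaithfulSMul.algebraMap_injective _ _
      ((ρ.toHomUnits y.1.1).mul_right_inj.1 e2))))
  rw [hn, Fin.prod_univ_two] at h1
  have h4 : (Nat.card τ.range).Coprime p := by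
    rw [Nat.coprime_comm, hp.out.coprime_iff_not_dvd]
    intro hd
    rcases hp.out.dvd_mul.1 (h2 ▸ hd.mul_left _) with e | e
    · exact hG e
    · have := Nat.le_of_dvd (by omega) e; omega
  have h5 : Nat.card τ.range ∣ (p ^ 2 - 1) * (p - 1) := h4.dvd_of_dvd_mul_left (by
    convert h1 using 1
    simp only [Fin.val_zero, Fin.val_one, pow_zero, pow_one]
    rw [mul_left_comm, Nat.mul_sub_one, pow_two])
  have h6 := Nat.le_of_dvd (Nat.mul_pos (Nat.sub_pos_of_lt (Nat.one_lt_pow two_ne_zero hp1)) (by omega)) h5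
  refine Nat.le_of_mul_le_mul_right (c := p - 1) ?_ (by omega)
  rw [← h2, mul_right_comm, mul_comm]
  exact Nat.mul_le_mul h6 h3

theorem two (h : TrRep ρ) (hG : ¬ p ∣ Nat.card G) (hΓ : ¬ Gam ρ) (hn : finrank (ZMod p) V = 2) {a : ℕ}
    (ha : Nat.card G = (p ^ 2 - 1) * a) : Nat.card (ConjClasses G) + a < p ^ 2 := by
  have hp1 := hp.out.one_lt
  have q1 := Nat.one_lt_pow two_ne_zero hp1
  have h1 := card_le_two h.inj hG hn
  have z0 : 0 < Nat.card (center G) := Nat.card_pos
  obtain ⟨k, k1, k2, k3, -, -, k4, -⟩ := h.exists_deg (center G) inferInstance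
  obtain rfl : k = 1 := by
    rw [hn] at k1 k4
    exact ((Nat.dvd_prime Nat.prime_two).1 k1).resolve_right fun e => hΓ ⟨_, inferInstance, k2, k4 e⟩
  have h2 := Nat.le_of_dvd (by simpa using hp1) k3
  have h3 : a ≤ Nat.card (center G) := Nat.le_of_mul_le_mul_left (ha ▸ h1) (by omega)
  have h4 := (KR.kb_of_cent (center G) (c := (p - 1) * Nat.card (center G)) le_rfl
    (Nat.mul_pos (by omega) z0) fun x hx => by
    by_contra hc
    obtain ⟨u, hu⟩ := card_dvd_of_le (center_le_centralizer ({x} : Set G))
    have u1 : p ≤ u := by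
      rw [hu, mul_comm] at hc
      have := lt_of_mul_lt_mul_right (not_le.1 hc) (Nat.zero_le _)
      omega
    have hC := comm_two h.inj hn hx
    set C := centralizer ({x} : Set G) with hCd
    have xC : x ∈ C := mem_centralizer_singleton_iff.2 rfl
    have : C.Normal := ⟨fun c hc g => by
      let D := C.map (MulAut.conj g).toMonoidHom
      have d1 : Nat.card D = Nat.card C := card_map_of_injective (MulAut.conj g).injective
      obtain ⟨y, hy, hyZ⟩ : ∃ y ∈ C ⊓ D, y ∉ center G := by
        by_contra hc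
        push Not at hc
        have e1 := (card_le_card_inf_mul_index C D).trans (Nat.mul_le_mul_right _ (card_le_of_le hc))
        have e2 := D.card_mul_index
        rw [d1] at e2
        rw [hu] at e1 e2
        have e3 := Nat.le_of_mul_le_mul_left e1 z0
        have e4 := Nat.mul_le_mul u1 (u1.trans e3)
        have e5 := Nat.mul_le_mul_left (Nat.card (center G)) (Nat.mul_le_mul u1 (u1.trans e3))
        rw [← mul_assoc _ u, e2, ← pow_two] at e5
        have := Nat.mul_lt_mul_of_pos_right (Nat.sub_one_lt (by omega : p ^ 2 ≠ 0)) z0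
        rw [mul_comm] at e5
        omega
      have := comm_two h.inj hn hyZ
      obtain ⟨d, hd, rfl⟩ := hy.2
      refine mem_centralizer_singleton_iff.2 (setLike_mul_comm (s := centralizer {(MulAut.conj g).toMonoidHom d})
        (mem_centralizer_singleton_iff.2 ?_) (mem_centralizer_singleton_iff.2 (setLike_mul_comm xC hy.1)))
      exact (map_mul (MulAut.conj g) c d).symm.trans
        ((congrArg _ (setLike_mul_comm hc hd)).trans (map_mul (MulAut.conj g) d c))⟩
    exact hΓ (h.gam_of_centralizer_le C hC (centralizer_le (Set.singleton_subset_iff.2 xC)))).top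
  obtain ⟨s, rfl⟩ := Nat.exists_eq_add_of_lt hp1
  simp only [pow_one, show 1 + s + 1 - 1 = s + 1 by omega] at h2 h4
  have := Nat.mul_le_mul_left (s + 3) h2
  have : Nat.card (ConjClasses G) + 1 ≤ Nat.card (center G) + (s + 1) * Nat.card (center G) := by omega
  nlinarith

end H81.TV
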