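import Mathlib
import Cfsg.Agent.Base
import Cfsg.Agent.Lib.KGT.Two
import Cfsg.Agent.Lib.KGT.Lift
import Cfsg.Agent.Lib.Lin35.FTB
import Cfsg.Agent.Lib.Mod88.Brauer
import Cfsg.Agent.Lib.GL.Basic
import Cfsg.Agent.S4485

/-! Primitive prime divisors in transitive linear groups of coprime order. -/

set_option autoImplicit false

namespace H81.TV

open Subgroup Module H82 H35L Cfsg
open scoped MatrixGroups

variable {G : Type*} [Group G] [Finite G]

theorem card_of_psl {s : ℕ} [hs : Fact s.Prime] (h2 : s ≠ 2) (e : G ⧸ center G ≃* PSL(2, ZMod s)) :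
    2 * Nat.card G = Nat.card (center G) * (s * (s - 1) * (s + 1)) := by
  have h1 := H10.card_PSL_two (F := ZMod s)
  obtain ⟨j, hj⟩ := hs.out.odd_of_ne_two h2
  rw [Nat.card_zmod, Nat.gcd_eq_left (show 2 ∣ s - 1 from ⟨j, by omega⟩), ← Nat.card_congr e.toEquiv] at h1
  rw [← h1, card_eq_card_quotient_mul_card_subgroup (center G)]
  ring

theorem three_dvd (s : ℕ) : 3 ∣ s * (s - 1) * (s + 1) := by
  rcases (by omega : 3 ∣ s ∨ 3 ∣ s - 1 ∨ 3 ∣ s + 1) with h | h | h
  · exact (h.mul_right _).mul_right _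
  · exact (h.mul_left _).mul_right _
  · exact h.mul_left _

theorem charDegree_eq {χ : G → ℂ} {m : ℕ} (hm : χ 1 = m) : charDegree χ = m := by
  simp [charDegree, hm]

/-- a large prime has a normal Sylow subgroup -/
theorem pcl_of_deg {s : ℕ} [hs : Fact s.Prime] {χ : G → ℂ} (hχ : IsCharacter G χ) (hf : ∀ g, χ g = χ 1 → g = 1)
    {m n : ℕ} (hm : χ 1 = m) (hmn : m ≤ n) (h1 : n + 1 < s) (h2 : 2 * n < s)
    (h3 : 2 * n + 1 < s ∨ ¬ 3 ∣ Nat.card G) : PCl s G := by
  refine ftb hχ hf hm (.inr ⟨by omega, fun K hK => ?_⟩)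
  by_cases hd : s ∣ Nat.card K
  swap
  · exact pcl_of_index (M := ⊥) (by rwa [index_bot, Nat.coprime_comm, hs.out.coprime_iff_not_dvd])
      (pcl_of_comm fun a b => Subsingleton.elim _ _)
  by_cases hH : ∃ H : Subgroup K, H.Normal ∧ Nat.card H = s
  · obtain ⟨H, _, hH⟩ := hH
    refine pcl_of_index (M := H) ?_ (pcl_of_isPGroup (IsPGroup.of_card (n := 1) (by rw [hH, pow_one])))
    rw [Nat.coprime_comm, hs.out.coprime_iff_not_dvd]
    intro hi
    exact hK (by rw [← H.card_mul_index, hH, pow_two]; exact Nat.mul_dvd_mul_left _ hi)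
  push Not at hH
  have hm' : charDegree (fun x : K => χ x) = m := charDegree_eq hm
  obtain ⟨k1, ⟨e⟩⟩ := H88.Mod.brauer_small_char hd hK hH (H6.isCharacter_restrict K hχ)
    (fun g hg => Subtype.ext (hf g hg)) (by omega)
  refine absurd (Dvd.dvd.trans ?_ (card_subgroup_dvd_card K)) (h3.resolve_left (by omega))
  exact (by norm_num : Nat.Coprime 3 2).dvd_of_dvd_mul_left
    (card_of_psl (by omega) e ▸ (three_dvd s).mul_left _)

variable {p : ℕ} [hp : Fact p.Prime] {V : Type*} [AddCommGroup V]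
  [Module (ZMod p) V] [Finite V] {ρ : G →* End (ZMod p) V}

/-- primitive prime divisor -/
def Ppd (p n r : ℕ) : Prop := r ∣ p ^ n - 1 ∧ ∀ k, 0 < k → k ≤ n → r ∣ p ^ k - 1 → k = n

theorem Ppd.dvd {n r : ℕ} (h : Ppd p n r) (hr : r.Prime) (hn : 0 < n) : n ∣ r - 1 := by
  have := Fact.mk hr
  have key : ∀ k, r ∣ p ^ k - 1 ↔ (p : ZMod r) ^ k = 1 := fun k => by
    rw [← ZMod.natCast_eq_zero_iff, Nat.cast_sub (Nat.one_le_pow _ _ hp.out.pos), sub_eq_zero]
    simp
  have h0 := orderOf_dvd_of_pow_eq_one ((key n).1 h.1)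
  have h1 := h.2 _ (Nat.pos_of_dvd_of_pos h0 hn) (Nat.le_of_dvd hn h0) ((key _).2 (pow_orderOf_eq_one _))
  have h2 : (p : ZMod r) ≠ 0 := fun e => by
    have := (key n).1 h.1
    rw [e, zero_pow hn.ne'] at this
    exact zero_ne_one this
  exact h1 ▸ ZMod.orderOf_dvd_card_sub_one h2

theorem Ppd.lt {n r : ℕ} (h : Ppd p n r) (hr : r.Prime) (hn : 0 < n) : n < r := by
  have := Nat.le_of_dvd (Nat.sub_pos_of_lt hr.one_lt) (h.dvd hr hn)
  have := hr.pos
  omega

theorem card_modEq {r : ℕ} [Fact r.Prime] {y : G} (hy : orderOf y = r) (W : Submodule (ZMod p) V)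
    (hW : ∀ a ∈ zpowers y, ∀ v ∈ W, ρ a v ∈ W) :
    Nat.card W ≡ Nat.card (W ⊓ LinearMap.ker (ρ y - 1) : Submodule (ZMod p) V) [MOD r] := by
  let _ : MulAction (zpowers y) W :=
    { smul := fun a v => ⟨ρ a v, hW a a.2 v v.2⟩
      one_smul := fun v => Subtype.ext (by change ρ 1 v = v; simp)
      mul_smul := fun a b v => Subtype.ext (by change ρ (a * b) v = ρ a (ρ b v); simp) }
  refine ((IsPGroup.of_card (G := zpowers y) (n := 1)
    (by rw [Nat.card_zpowers, hy, pow_one])).card_modEq_card_fixedPoints W).trans ?_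
  rw [Nat.card_congr (⟨fun v => ⟨v.1, v.1.2, 
      sub_eq_zero.2 (congrArg Subtype.val (v.2 ⟨y, mem_zpowers y⟩))⟩, fun v => ⟨⟨v.1, v.2.1⟩, fun a => Subtype.ext (by
      obtain ⟨k, hk⟩ := (Submonoid.mem_powers_iff _ _).1 (mem_powers_iff_mem_zpowers.2 a.2)
      have h1 : ρ y v = v := sub_eq_zero.1 v.2.2
      change ρ a v = v
      rw [← hk, map_pow, End.pow_apply]
      exact Function.iterate_fixed h1 k)⟩, fun _ => rfl, fun _ => rfl⟩ :
    MulAction.fixedPoints (zpowers y) W ≃ (W ⊓ LinearMap.ker (ρ y - 1) : Submodule (ZMod p) V))]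

theorem Ppd.irr {r : ℕ} [hr : Fact r.Prime] (h : Ppd p (finrank (ZMod p) V) r) (hρ : Function.Injective ρ) {y : G}
    (hy : orderOf y = r) : Irr ρ (zpowers y) := by
  have key : ∀ W : Submodule (ZMod p) V, 1 ≡ Nat.card W [MOD r] → W = ⊥ ∨ W = ⊤ := fun W hW => by
    rw [card_V (q := p), Nat.modEq_iff_dvd' (Nat.one_le_pow _ _ hp.out.pos)] at hW
    rcases Nat.eq_zero_or_pos (finrank (ZMod p) W) with h0 | h0
    · exact .inl (Submodule.finrank_eq_zero.1 h0)
    · exact .inr (Submodule.eq_top_of_finrank_eq (h.2 _ h0 W.finrank_le hW))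
  have h1 := card_modEq (ρ := ρ) hy ⊤ fun _ _ _ _ => trivial
  rw [top_inf_eq, Nat.card_congr Submodule.topEquiv.toEquiv, card_V (q := p)] at h1
  have h2 := (key _ (((Nat.modEq_iff_dvd' (Nat.one_le_pow _ _ hp.out.pos)).2 h.1).trans h1)).resolve_right fun e => by
    rw [LinearMap.ker_eq_top, sub_eq_zero, ← map_one ρ] at e
    rw [hρ e, orderOf_one] at hy
    exact hr.out.one_lt.ne hy
  intro W hW
  have h3 := card_modEq hy W hW
  rw [h2, inf_bot_eq, Nat.card_unique (α := (⊥ : Submodule (ZMod p) V))] at h3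
  exact key W h3.symm

variable [Nontrivial V]

theorem Ppd.comm {r : ℕ} [hr : Fact r.Prime] (h : Ppd p (finrank (ZMod p) V) r) (hρ : Function.Injective ρ) {y : G}
    (hy : orderOf y = r) : IsMulCommutative (centralizer ({y} : Set G)) := by
  obtain ⟨v, hv⟩ := exists_ne (0 : V)
  exact cent_zpowers y ▸ comm_cent hρ inferInstance ((h.irr hρ hy).fldEv_surjective hv)

theorem Ppd.eq_bot {r : ℕ} [hr : Fact r.Prime] (hd : Ppd p (finrank (ZMod p) V) r) (h : TrRep ρ) (hΓ : ¬ Gam ρ)
    {N : Subgroup G} [N.Normal] (hN : IsPGroup r N) : N = ⊥ := by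
  by_contra hne
  obtain ⟨k, k1, k2, k3⟩ := h.exists_deg_prime hN hne
  exact hΓ (k3 (hd.2 k (Nat.pos_of_dvd_of_pos k1 finrank_V_pos) (Nat.le_of_dvd finrank_V_pos k1) k2))

theorem Ppd.not_normal {r : ℕ} [hr : Fact r.Prime] (hd : Ppd p (finrank (ZMod p) V) r) (h : TrRep ρ) (hΓ : ¬ Gam ρ)
    (P : Sylow r G) : ¬ (P : Subgroup G).Normal := fun _ =>
  P.ne_bot_of_dvd_card (hd.1.trans h.card_dvd) (hd.eq_bot h hΓ P.isPGroup')

theorem Ppd.not_sq {r : ℕ} [hr : Fact r.Prime] (hd : Ppd p (finrank (ZMod p) V) r) (h : TrRep ρ) (hΓ : ¬ Gam ρ)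
    (hG : ¬ p ∣ Nat.card G) : ¬ r ^ 2 ∣ Nat.card G := by
  intro h2
  obtain ⟨P⟩ : Nonempty (Sylow r G) := inferInstance
  obtain ⟨χ, m, h1, hm, hmn, hf⟩ := exists_char hG ρ h.inj
  have hr1 := hd.lt hr.out finrank_V_pos
  have hne := P.ne_bot_of_dvd_card (hd.1.trans h.card_dvd)
  obtain ⟨z, z1, z2, z3⟩ := H5.exists_mem_centralizer_orderOf_eq P.isPGroup' le_rfl le_normalizer hne
  have cz := hd.comm h.inj z3
  refine hd.not_normal h hΓ P (Cfsg.Agent.S4485.result r hr.out (hd.1.trans h.card_dvd) P (fun x hx x1 => ?_) _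
    P.card_eq_multiplicity χ h1 hf ?_)
  · refine le_antisymm (fun c hc u hu => ?_) (centralizer_le (Set.singleton_subset_iff.2 hx))
    have h6 : r ∣ orderOf x := by
      obtain ⟨j, -, hj⟩ := (Nat.dvd_prime_pow hr.out).1 (P.card_eq_multiplicity ▸ H1.orderOf_dvd_card_of_mem hx)
      rw [hj]
      exact dvd_pow_self r (by rintro rfl; exact x1 (orderOf_eq_one_iff.1 hj))
    have := hd.comm h.inj (orderOf_pow_orderOf_div (orderOf_pos x).ne' h6)
    refine setLike_mul_comm (s := centralizer {x ^ (orderOf x / r)}) (mem_centralizer_singleton_iff.2 ?_)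
      (mem_centralizer_singleton_iff.2 (Commute.pow_right (mem_centralizer_singleton_iff.1 hc) _))
    exact setLike_mul_comm (s := centralizer {z}) (mem_centralizer_singleton_iff.2 (z2 u hu))
      (mem_centralizer_singleton_iff.2 (z2 _ (pow_mem hx _)))
  · rw [charDegree_eq hm]
    refine lt_of_lt_of_le ?_ (Nat.pow_le_pow_right hr.out.pos
      ((hr.out.pow_dvd_iff_le_factorization Nat.card_pos.ne').1 h2))
    have := finrank_V_pos (q := p) (V := V)
    nlinarith

/-- abelian normal subgroups are small -/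
theorem Ppd.small {r : ℕ} [hr : Fact r.Prime] (hd : Ppd p (finrank (ZMod p) V) r) (h : TrRep ρ) (hΓ : ¬ Gam ρ)
    (hG : ¬ p ∣ Nat.card G) (N : Subgroup G) [N.Normal] (hN : IsMulCommutative N) :
    Nat.card N ∣ p - 1 ∨ Nat.card N ∣ p ^ 2 - 1 ∧ 3 ∣ Nat.card G := by
  have := finite_end (q := p) (V := V)
  let _ := (h.isField hN).toField
  have hK : Nat.card (fld ρ N) = p ^ finrank (ZMod p) (fld ρ N) := card_V
  let u : N →* (fld ρ N)ˣ := MonoidHom.toHomUnits
    ((ρ.comp N.subtype).codRestrict (fld ρ N) fun a => mem_fld a.2)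
  have hu : Function.Injective u := fun a b e =>
    Subtype.ext (h.inj (congrArg (fun x : (fld ρ N)ˣ => x.1.1) e))
  have h1 : finrank (ZMod p) V = finrank (ZMod p) (fld ρ N) * finrank (fld ρ N) V := by
    apply Nat.pow_right_injective hp.out.two_le
    simp only
    rw [pow_mul, ← hK, ← card_V, natCard_eq_pow_finrank (K := fld ρ N)]
  have h2 := card_dvd_of_injective u hu
  rw [Nat.card_units, hK] at h2
  have h3 : (centralizer (N : Set G)).index ∣ finrank (ZMod p) (fld ρ N) := by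
    rw [← ker_fldAut (A := N) h.inj, index_ker, ← IsGalois.card_aut_eq_finrank]
    exact card_subgroup_dvd_card _
  let σ : centralizer (N : Set G) →* End (fld ρ N) V :=
    { toFun := fun c =>
        { toFun := ρ c
          map_add' := map_add _
          map_smul' := fun a v => LinearMap.congr_fun (commute_fld (c := ρ c) (fun b hb => by
            rw [Commute, SemiconjBy, ← map_mul, ← map_mul, c.2 b hb]) a.2).eq v }
      map_one' := LinearMap.ext fun v => by simp
      map_mul' := fun a b => LinearMap.ext fun v => by simp }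
  have : CharP (fld ρ N) p := charP_of_injective_algebraMap (algebraMap (ZMod p) (fld ρ N)).injective p
  obtain ⟨χ, m, c1, hm, hmn, hf⟩ := exists_char (fun e => hG (e.trans (card_subgroup_dvd_card _))) σ
    fun a b e => Subtype.ext (h.inj (LinearMap.ext fun v => by exact LinearMap.congr_fun e v))
  have hn := finrank_V_pos (q := p) (V := V)
  have hr1 := hd.lt hr.out hn
  by_contra hc
  push Not at hc
  obtain ⟨P⟩ : Nonempty (Sylow r G) := inferInstance
  generalize finrank (ZMod p) (fld ρ N) = k at *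
  generalize finrank (fld ρ N) V = d at *
  have k0 : 0 < k := Nat.pos_of_mul_pos_right (h1 ▸ hn)
  have d0 : 0 < d := Nat.pos_of_mul_pos_left (h1 ▸ hn)
  have k2 : 2 ≤ k := by
    by_contra hk
    obtain rfl : k = 1 := by omega
    exact hc.1 (by simpa using h2)
  have k3 := Nat.mul_le_mul_right d k2
  refine hd.not_normal h hΓ P ((pcl_of_index (M := centralizer (N : Set G)) ?_
    (pcl_of_deg c1 hf hm hmn (by omega) (by omega) ?_)).normal P)
  · rw [Nat.coprime_comm, hr.out.coprime_iff_not_dvd]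
    exact fun e => absurd (Nat.le_of_dvd hn ((e.trans h3).trans ⟨d, h1⟩)) (by omega)
  · rcases k2.eq_or_lt with rfl | k4
    · exact .inr fun e => hc.2 h2 (e.trans (card_subgroup_dvd_card _))
    · have := Nat.mul_le_mul_right d k4
      omega

end H81.TV
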