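import Mathlib
import Cfsg.Agent.Base
import Cfsg.Agent.Lib.KGT.Ppd
import Cfsg.Agent.Lib.Char.BurnsidePQ

/-! Class numbers of the exceptional transitive groups in dimension four over the field of order three. -/

set_option autoImplicit false

namespace H81.TV

open Subgroup Module H82 H35L Cfsg
open scoped commutatorElement

variable {G : Type*} [Group G] [Finite G]

theorem sum_ind (Y K : Subgroup G) [Fintype Y] [DecidablePred (· ∈ K)] (c : ℕ) :
    ∑ y : Y, (if (y : G) ∈ K then c else 0) ≤ Nat.card K * c := by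
  rw [Finset.sum_ite, Finset.sum_const_zero, add_zero, Finset.sum_const, smul_eq_mul]
  refine Nat.mul_le_mul_right _ ?_
  rw [← Fintype.card_coe, ← Nat.card_eq_fintype_card]
  exact Nat.card_le_card_of_injective (fun x => (⟨x.1, (Finset.mem_filter.1 x.2).2⟩ : K))
    fun x y e => Subtype.ext (Subtype.ext (congrArg (Subtype.val : K → G) e))

theorem four_core (E : Subgroup G) [E.Normal] (hZ : Nat.card (center G) = 2)
    (hC : centralizer (E : Set G) = center G) (hZE : center G ≤ E) (hE : Nat.card E = 32)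
    (hG : Nat.card G ∣ 2560) (h5 : 5 ∣ Nat.card G) (hx : ∀ x, orderOf x = 5 → E ⊓ centralizer {x} ≤ center G)
    (hD : fixMod (center G) ⊤ E ≤ E) : Nat.card (ConjClasses G) ≤ 52 ∧ Nat.card G ≤ 1280 := by
  classical
  have := Fact.mk Nat.prime_five
  have o5 : ∀ x y : G, orderOf x = 5 → y ∈ zpowers x → y ≠ 1 → orderOf y = 5 := fun x y h hy y1 =>
    ((Nat.dvd_prime Nat.prime_five).1 (h ▸ orderOf_dvd_of_mem_zpowers hy)).resolve_left (by simpa using y1)
  have star : ∀ x, orderOf x = 5 → ∀ U : Subgroup G, IsPGroup 2 U → x ∈ normalizer (U : Set G) → U ≤ E := by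
    intro x h U hU hxU
    let W := fixMod (center G) E U
    have WE : W ≤ E := fun w hw => (mem_fixMod.1 hw).1
    have ZW : center G ≤ W := fun z hz => mem_fixMod.2 ⟨hZE hz, fun g _ => by
      rw [commutatorElement_eq_one_iff_mul_comm.2 (mem_center_iff.1 hz g)]; exact one_mem _⟩
    have h1 := relIndex_modEq (center G) E U hU
    have h2 := H1.card_mul_relIndex_of_le hZE
    have h3 := H1.card_mul_relIndex_of_le ZW
    have h4 := card_dvd_sub (R := zpowers x) (E := W) (Z := center G) (zpowers_le.2 (mem_normalizer_fintype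
      fun w hw => mem_fixMod.2 ⟨Normal.conj_mem ‹_› _ (WE hw) _, fun g hg => by
        have e : ⁅g, x * w * x⁻¹⁆ = x * ⁅x⁻¹ * g * x, w⁆ * x⁻¹ := by simp only [commutatorElement_def]; group
        rw [e]
        exact Normal.conj_mem inferInstance _ ((mem_fixMod.1 hw).2 _ ((mem_normalizer_iff''.1 hxU g).1 hg)) _⟩))
      le_normalizer_of_normal ZW fun y hy y1 e he hc =>
        hx y (o5 x y h hy y1) ⟨WE he, mem_centralizer_singleton_iff.2 hc.symm⟩
    have h6 := card_dvd_of_le WE
    rw [Nat.card_zpowers, h, hZ] at h4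
    rw [hZ, hE] at h2
    rw [hZ] at h3
    rw [hE] at h6
    have h7 : W = E := by
      refine eq_of_le_of_card_ge WE ?_
      rw [hE]
      change _ ≡ (center G).relIndex W [MOD 2] at h1
      have h8 := Nat.le_of_dvd (by norm_num) h6
      unfold Nat.ModEq at h1
      generalize Nat.card W = w at *
      interval_cases w <;> omega
    exact fun u hu => hD (mem_fixMod.2 ⟨trivial, fun e he => by
      rw [← commutatorElement_inv]; exact inv_mem ((mem_fixMod.1 (h7.ge he)).2 u hu)⟩)
  have odd : ∀ i : ℕ, i ∣ Nat.card G → ¬ 2 ∣ i → i ∣ 5 := fun i h1 h2 =>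
    (((Nat.prime_two.coprime_iff_not_dvd.2 h2).symm).pow_right 9).dvd_of_dvd_mul_left (h1.trans hG)
  obtain ⟨x, x5⟩ := exists_prime_orderOf_dvd_card' 5 h5
  have m0 : 0 < Nat.card G := Nat.card_pos
  have hm : Nat.card G ≤ 1280 := by
    obtain ⟨P⟩ : Nonempty (Sylow 2 G) := inferInstance
    have h1 := card_dvd_of_le (star x x5 (P : Subgroup G).normalCore (P.isPGroup'.to_le (normalCore_le _))
      (le_normalizer_of_normal (mem_top x)))
    have h2 : (P : Subgroup G).normalCore.index ∣ (P : Subgroup G).index.factorial := by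
      rw [normalCore_eq_ker, index_ker, index_eq_card, ← Nat.card_perm]; exact card_subgroup_dvd_card _
    have h3 := h2.trans (Nat.factorial_dvd_factorial (Nat.le_of_dvd (by norm_num)
      (odd _ (index_dvd_card _) P.not_dvd_index)))
    have h4 := Nat.mul_dvd_mul h1 h3
    rw [card_mul_index, hE] at h4
    exact Nat.le_of_dvd (by norm_num) ((Nat.dvd_gcd h4 hG).trans (by decide))
  have c5 : ∀ y, orderOf y = 5 → Nat.card (centralizer ({y} : Set G)) ≤ 10 := fun y y5 => by
    obtain ⟨P⟩ : Nonempty (Sylow 2 (centralizer ({y} : Set G))) := inferInstance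
    have h1 := Nat.le_of_dvd (by norm_num)
      (odd _ ((index_dvd_card _).trans (card_subgroup_dvd_card _)) P.not_dvd_index)
    have h2 := map_subtype_le (H := centralizer ({y} : Set G)) (P : Subgroup _)
    have h3 := card_le_of_le ((le_inf (star y y5 _ (P.isPGroup'.map _) (centralizer_le_normalizer _
      fun u hu => mem_centralizer_singleton_iff.1 (h2 hu))) h2).trans (hx y y5))
    rw [card_map_of_injective (subtype_injective _), hZ] at h3
    rw [← (P : Subgroup (centralizer ({y} : Set G))).card_mul_index]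
    exact Nat.mul_le_mul h3 h1
  have cE : ∀ y ∈ E, y ∉ center G → 10 * Nat.card (centralizer ({y} : Set G)) ≤ Nat.card G := fun y hy yZ => by
    set C := centralizer ({y} : Set G)
    have e := C.card_mul_index
    have h1 : 5 ∣ C.index := (Nat.prime_five.dvd_mul.1 (e ▸ h5)).resolve_left fun h => by
      obtain ⟨u, hu⟩ := exists_prime_orderOf_dvd_card' 5 h
      exact yZ (hx u ((orderOf_coe u).trans hu) ⟨hy, mem_centralizer_singleton_iff.2
        (mem_centralizer_singleton_iff.1 u.2).symm⟩)
    have h2 : 2 ∣ C.index := by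
      have h3 := H1.card_mul_relIndex_of_le (le_sup_left : C ≤ C ⊔ E)
      have h4 := H1.card_sup_mul_card_inf_of_normal C E
      have h6 := H1.card_inf_mul_relIndex C E
      rw [← h3, ← h6, mul_assoc, mul_comm (Nat.card (C ⊓ E : Subgroup G))] at h4
      have h7 := Nat.eq_of_mul_eq_mul_right Nat.card_pos (Nat.eq_of_mul_eq_mul_left Nat.card_pos h4)
      refine Dvd.dvd.trans ?_ (h7 ▸ relIndex_dvd_index_of_le (le_sup_left : C ≤ C ⊔ E))
      obtain ⟨j, -, hj⟩ := (Nat.dvd_prime_pow Nat.prime_two (m := 5)).1 (hE ▸ relIndex_dvd_card C E)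
      rw [hj]
      refine dvd_pow_self 2 ?_
      rintro rfl
      exact yZ (hC ▸ fun u hu => mem_centralizer_singleton_iff.1 (relIndex_eq_one.1 hj hu))
    rw [← e, mul_comm]
    exact Nat.mul_le_mul_left _ (Nat.le_of_dvd (Nat.pos_of_ne_zero C.index_ne_zero_of_finite)
      ((by norm_num : Nat.Coprime 2 5).mul_dvd_of_dvd_of_dvd h2 h1))
  refine ⟨?_, hm⟩
  let Y := zpowers x ⊔ E
  have := Fintype.ofFinite G
  have := Fintype.ofFinite Y
  have y1 : Nat.card Y = 160 := by
    have := H1.card_sup_mul_card_inf_of_normal (zpowers x) E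
    rwa [disjoint_iff.1 (disjoint_of_coprime_natCard (by rw [Nat.card_zpowers, x5, hE]; norm_num)), card_bot, mul_one,
      Nat.card_zpowers, x5, hE] at this
  have y2 := H1.card_mul_relIndex_of_le (le_sup_right : E ≤ Y)
  have y3 : (E.subgroupOf Y).index = 5 := by
    have y4 : Nat.card E * E.relIndex Y = 160 := y2.trans y1
    rw [hE] at y4; change E.relIndex Y = 5; omega
  have key := card_conjClasses_mul_le_aux Y
  have h1 : ∑ y : Y, 10 * Nat.card (centralizer ({(y : G)} : Set G)) ≤ ∑ y : Y,
      ((if (y : G) ∈ center G then 10 * Nat.card G else 0) + (if (y : G) ∈ E then Nat.card G else 0) + 100) := by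
    refine Finset.sum_le_sum fun y _ => ?_
    by_cases h1 : (y : G) ∈ center G
    · have := card_le_card_group (centralizer ({(y : G)} : Set G))
      rw [if_pos h1]; omega
    by_cases h2 : (y : G) ∈ E
    · have := cE y h2 h1
      rw [if_pos h2]; omega
    have h3 : orderOf ((y : G) ^ 32) = 5 := by
      refine orderOf_eq_prime ?_ fun e => h2 ?_
      · rw [← pow_mul]; exact congrArg Subtype.val (y1 ▸ pow_card_eq_one' (x := y))
      · have h4 : (y : G) ^ 5 ∈ E := y3 ▸ pow_index_mem (H := E.subgroupOf Y) y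
        have h6 : (y : G) = ((y : G) ^ 5) ^ 13 := by
          rw [← pow_mul, show 5 * 13 = 32 * 2 + 1 by norm_num, pow_succ, pow_mul, e, one_pow, one_mul]
        exact h6 ▸ pow_mem h4 13
    have := (card_le_of_le (fun c hc => mem_centralizer_singleton_iff.2
      (Commute.pow_right (mem_centralizer_singleton_iff.1 hc) 32) : centralizer {(y : G)} ≤ _)).trans (c5 _ h3)
    omega
  rw [← Finset.mul_sum, Finset.sum_add_distrib, Finset.sum_add_distrib, Finset.sum_const, Finset.card_univ,
    ← Nat.card_eq_fintype_card, y1, smul_eq_mul] at h1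
  have h2 := sum_ind Y (center G) (10 * Nat.card G)
  have h3 := sum_ind Y E (Nat.card G)
  rw [hZ] at h2
  rw [hE] at h3
  have e := Y.card_mul_index
  rw [y1] at e
  have t0 : 0 < Y.index := by omega
  refine Nat.le_of_mul_le_mul_right (c := Y.index) ?_ t0
  generalize (∑ y : Y, Nat.card (centralizer ({(y : G)} : Set G))) = S at *
  have h4 : S ≤ 160 * 52 := by omega
  have h6 := key.trans (Nat.mul_le_mul_left _ h4)
  rw [← e] at h6
  nlinarith

variable {V : Type*} [AddCommGroup V] [Module (ZMod 3) V] [Finite V] [Nontrivial V] {ρ : G →* End (ZMod 3) V}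

theorem four (h : TrRep ρ) (hG : ¬ 3 ∣ Nat.card G) (hΓ : ¬ Gam ρ) (hn : finrank (ZMod 3) V = 4) :
    Nat.card (ConjClasses G) ≤ 52 ∧ Nat.card G ≤ 1280 := by
  have := Fact.mk Nat.prime_five
  have : Fact (Nat.Prime 13) := ⟨by norm_num⟩
  have hd : Ppd 3 (finrank (ZMod 3) V) 5 := by
    rw [hn]
    exact ⟨by norm_num, fun k h1 h2 h3 => by interval_cases k <;> simp_all⟩
  have h5 := hd.1.trans h.card_dvd
  have h13 : ¬ 13 ∣ Nat.card G := fun h13 => by
    obtain ⟨χ, m, h1, hm, hmn, hf⟩ := exists_char hG ρ h.inj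
    obtain ⟨P⟩ : Nonempty (Sylow 13 G) := inferInstance
    have := (pcl_of_deg (s := 13) h1 hf hm hmn (by omega) (by omega) (.inr hG)).normal P
    obtain ⟨k, k1, k2, -⟩ := h.exists_deg_prime P.isPGroup' (P.ne_bot_of_dvd_card h13)
    rw [hn] at k1
    have := Nat.le_of_dvd (by norm_num) k1
    interval_cases k <;> simp_all
  have hG' : Nat.card G ∣ 2560 := by
    have h1 := card_dvd_GL' h.inj
    rw [hn, show ∏ i : Fin 4, (3 ^ 4 - 3 ^ (i : ℕ)) = 3 ^ 6 * (13 * 2560) by decide] at h1
    exact ((Nat.Prime.coprime_iff_not_dvd (by norm_num)).2 h13).symm.dvd_of_dvd_mul_left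
      (((Nat.prime_three.coprime_iff_not_dvd.2 hG).symm.pow_right 6).dvd_of_dvd_mul_left h1)
  have := H8.isSolvable_of_card_dvd (a := 9) (b := 1) Nat.prime_two Nat.prime_five hG'
  have hZ := (hd.small h hΓ hG (center G) inferInstance).resolve_right fun e => hG e.2
  obtain ⟨E, hE⟩ := exists_crit (G := G) 2
  have := hE.normal
  have hO := hd.eq_bot h hΓ (H1.isPGroup_pCore (p := 5) (G := G))
  have key : ∀ y : G, orderOf y = 5 → y ∉ centralizer (E : Set G) := by
    intro y hy hc
    obtain ⟨q, hq, hyq⟩ := exists_not_mem_centralizer_pCore (x := y) fun hF => by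
      have h1 := H1.le_pCore_of_le_fitting (p := 5) (IsPGroup.of_card (n := 1) (by
        rw [Nat.card_zpowers, hy, pow_one])) (zpowers_le.2 hF)
      rw [hO, zpowers_le, mem_bot] at h1
      simp [h1] at hy
    have := Fact.mk hq
    have h1 : q ∣ 2 ^ 9 * 5 := ((H1.isPGroup_pCore (p := q) (G := G)).card_eq_or_dvd.resolve_left fun e =>
      hyq (card_eq_one.1 e ▸ mem_centralizer_bot y)).trans ((card_subgroup_dvd_card _).trans hG')
    rcases hq.dvd_mul.1 h1 with e | e
    · obtain rfl := (Nat.prime_dvd_prime_iff_eq hq Nat.prime_two).1 (hq.dvd_of_dvd_pow e)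
      exact hyq (hE.mem_centralizer (by rw [hy]; norm_num) hc)
    · obtain rfl := (Nat.prime_dvd_prime_iff_eq hq Nat.prime_five).1 e
      exact hyq (hO ▸ mem_centralizer_bot y)
  have big := fun y hy => h.crit_big Nat.prime_five (by norm_num) (by omega) hE hy (key y hy)
  obtain ⟨x, x5⟩ := exists_prime_orderOf_dvd_card' 5 h5
  have h16 := (big x x5).2.2.2.1
  have hC : centralizer (E : Set G) = center G :=
    le_antisymm ((h.relIndex_le hE le_rfl inf_le_right).2 h16) (center_le_centralizer _)
  obtain ⟨z, z1, z2, z3⟩ := H5.exists_mem_centralizer_orderOf_eq hE.isPGroup le_rfl le_normalizer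
    (fun e => key x x5 (e ▸ mem_centralizer_bot x))
  have hz : zpowers z = center G := eq_of_le_of_card_ge (zpowers_le.2 (hC ▸ z2)) (by
    rw [Nat.card_zpowers, z3]; exact Nat.le_of_dvd two_pos hZ)
  have hZ2 : Nat.card (center G) = 2 := by rw [← hz, Nat.card_zpowers, z3]
  have hZE : center G ≤ E := hz ▸ zpowers_le.2 z1
  have hE32 : Nat.card E = 32 := by rw [← H1.card_mul_relIndex_of_le hZE, hZ2, ← hC, h16, hn]
  refine four_core E hZ2 hC hZE hE32 hG' h5 (fun y hy => hC ▸ (big y hy).2.2.2.2) ?_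
  set D := fixMod (center G) ⊤ E
  have ED : E ≤ D := fun e he => mem_fixMod.2 ⟨trivial, fun g hg => hC ▸ hE.comm g hg e he⟩
  have d1 : ⁅E, D⁆ ≤ center G := commutator_le.2 fun e he d hd => (mem_fixMod.1 hd).2 e he
  have d2 : ⁅⁅E, D⁆, D⁆ = ⊥ := commutator_eq_bot_iff_le_centralizer.2 (d1.trans (center_le_centralizer _))
  have d3 : ⁅D, D⁆ ≤ center G := hC ▸ commutator_eq_bot_iff_le_centralizer.1
    (commutator_commutator_eq_bot_of_rotate (by rwa [Subgroup.commutator_comm D E]) d2)
  have d4 : centralizer (D : Set G) ≤ center G := hC ▸ centralizer_le ED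
  have := Fintype.ofFinite (D ⧸ (centralizer (D : Set G)).subgroupOf D)
  have hl := (linearIndependent_out (ρ := ρ) (Q := D)
    (fun x hx y hy => center_le_centralizer _ (d3 (commutator_mem_commutator hx hy)))
    (fun z hz h1 v hv => h.fpf (A := center G) inferInstance (d4 hz.2) h1 hv)
    (fun e => hG (((ZMod.natCast_eq_zero_iff _ _).1 e).trans (card_subgroup_dvd_card _)))).fintype_card_le_finrank
  rw [finrank_linearMap (ZMod 3) (ZMod 3), hn, ← Nat.card_eq_fintype_card] at hl
  refine (eq_of_le_of_card_ge ED ?_).ge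
  rw [← H1.card_inf_mul_relIndex (centralizer (D : Set G)) D, hE32]
  exact Nat.mul_le_mul (hZ2 ▸ card_le_of_le (inf_le_left.trans d4)) hl

end H81.TV
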