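import Mathlib
import Cfsg.Agent.Base
import Cfsg.Agent.Lib.GL.Basic

/-! Two computations in `SL(2, 5)`. -/

set_option autoImplicit false

namespace H81.TV

open scoped MatrixGroups

/-- quadruples of determinant one -/
def slT : Finset (ZMod 5 × ZMod 5 × ZMod 5 × ZMod 5) :=
  Finset.univ.filter fun x => x.1 * x.2.2.2 - x.2.1 * x.2.2.1 = 1

set_option maxHeartbeats 1000000 in
theorem slT_cnt : ((slT ×ˢ slT).filter fun p => p.1.2.1 * p.2.2.2.1 = p.2.2.1 * p.1.2.2.1 ∧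
    p.1.1 * p.2.2.1 + p.1.2.1 * p.2.2.2.2 = p.2.1 * p.1.2.1 + p.2.2.1 * p.1.2.2.2 ∧
    p.1.2.2.1 * p.2.1 + p.1.2.2.2 * p.2.2.2.1 = p.2.2.2.1 * p.1.1 + p.2.2.2.2 * p.1.2.2.1).card = 1080 := by
  decide +kernel

theorem comm_SL {R : Type*} [CommRing R] [Fintype R] [DecidableEq R] (S : Finset (R × R × R × R))
    (hS : ∀ x, x ∈ S ↔ x.1 * x.2.2.2 - x.2.1 * x.2.2.1 = 1) :
    Nat.card {p : SL(2, R) × SL(2, R) // Commute p.1 p.2} = ((S ×ˢ S).filter fun p =>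
      p.1.2.1 * p.2.2.2.1 = p.2.2.1 * p.1.2.2.1 ∧
      p.1.1 * p.2.2.1 + p.1.2.1 * p.2.2.2.2 = p.2.1 * p.1.2.1 + p.2.2.1 * p.1.2.2.2 ∧
      p.1.2.2.1 * p.2.1 + p.1.2.2.2 * p.2.2.2.1 = p.2.2.2.1 * p.1.1 + p.2.2.2.2 * p.1.2.2.1).card := by
  classical
  rw [Nat.card_eq_fintype_card, Fintype.card_subtype]
  refine Finset.card_bij (fun p _ => ((p.1 0 0, p.1 0 1, p.1 1 0, p.1 1 1), (p.2 0 0, p.2 0 1, p.2 1 0, p.2 1 1)))
    (fun p hp => ?_) (fun p _ q _ e => ?_) fun t ht => ?_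
  · have h1 := p.1.det_coe
    have h2 := p.2.det_coe
    have h3 := congrArg Subtype.val (Finset.mem_filter.1 hp).2.eq
    rw [Matrix.det_fin_two] at h1 h2
    have h4 := fun i j => congrFun (congrFun h3 i) j
    simp only [Matrix.SpecialLinearGroup.coe_mul, Matrix.mul_apply, Fin.sum_univ_two] at h4
    simp only [hS, Finset.mem_filter, Finset.mem_product]
    exact ⟨⟨h1, h2⟩, by linear_combination h4 0 0, h4 0 1, h4 1 0⟩
  · simp only [Prod.mk.injEq] at e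
    refine Prod.ext (Subtype.ext ?_) (Subtype.ext ?_) <;> ext i j <;> fin_cases i <;> fin_cases j <;> simp [e]
  · obtain ⟨⟨a, b, c, d⟩, a', b', c', d'⟩ := t
    simp only [hS, Finset.mem_filter, Finset.mem_product] at ht
    obtain ⟨⟨h1, h2⟩, h3, h4, h5⟩ := ht
    refine ⟨(⟨!![a, b; c, d], by rwa [Matrix.det_fin_two_of]⟩, ⟨!![a', b'; c', d'], by rwa [Matrix.det_fin_two_of]⟩),
      Finset.mem_filter.2 ⟨Finset.mem_univ _, Subtype.ext ?_⟩, rfl⟩
    change !![a, b; c, d] * !![a', b'; c', d'] = !![a', b'; c', d'] * !![a, b; c, d]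
    rw [Matrix.mul_fin_two, Matrix.mul_fin_two, h4, h5, show a * a' + b * c' = a' * a + b' * c by linear_combination h3,
      show c * b' + d * d' = c' * b + d' * d by linear_combination -h3]

theorem cc_SL25 : Nat.card (ConjClasses SL(2, ZMod 5)) = 9 := by
  have : Fact (Nat.Prime 5) := ⟨Nat.prime_five⟩
  have h := card_comm_eq_card_conjClasses_mul_card SL(2, ZMod 5)
  rw [comm_SL slT fun x => by simp [slT], slT_cnt, H10.card_SL_two, Nat.card_zmod] at h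
  omega

theorem exists_four : ∃ y : SL(2, ZMod 5), y ^ 4 = 1 ∧ y ^ 2 ≠ 1 ∧
    ∀ x, x * y = y * x → x ∈ ({1, y, y ^ 2, y ^ 3} : Finset _) :=
  ⟨⟨!![2, 0; 0, 3], by decide⟩, by decide +kernel⟩

end H81.TV
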